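import Mathlib
import Cfsg.Agent.Lib.Helper3.ClassFix
import Cfsg.Agent.Lib.Helper3.OctStab
import Cfsg.Agent.Lib.Helper3.K5

set_option autoImplicit false

/-! The centraliser of an involution of octad type acts on the 32 code words missing the octad. -/

namespace Cfsg.Agent.Lib.Helper3.CZ

open Cfsg Cfsg.Agent.Lib.Helper3
open scoped Pointwise

def wI : Fin 5 → ℕ := ![5, 6, 8, 9, 11]
def bM : Fin 5 → ℕ := ![0xb66020, 0xecc040, 0x3da100, 0x7b4200, 0xe3a800]

def toZ (b : Bool) : ZMod 2 := if b then 1 else 0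

theorem toZ_xor : ∀ a b : Bool, toZ (a ^^ b) = toZ a + toZ b := by decide
theorem toZ_and : ∀ a b : Bool, toZ (a && b) = toZ a * toZ b := by decide

/-- indicator function of a set. -/
def ind (X : Finset GolayPt) (q : GolayPt) : ZMod 2 := if q ∈ X then 1 else 0

theorem ind_eq (X : Finset GolayPt) (q : GolayPt) : ind X q = toZ ((mask X).testBit (idx q)) := by
  unfold ind toZ
  by_cases h : q ∈ X
  · rw [if_pos h, if_pos ((mem_iff_testBit q X).1 h)]
  · rw [if_neg h, if_neg (fun h' => h ((mem_iff_testBit q X).2 h'))]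

theorem ind_unmask (x : ℕ) (q : GolayPt) : ind (unmask x) q = toZ (x.testBit (idx q)) := by
  unfold ind toZ
  by_cases h : q ∈ unmask x
  · rw [if_pos h, if_pos ((mem_unmask x q).1 h)]
  · rw [if_neg h, if_neg (fun h' => h ((mem_unmask x q).2 h'))]

theorem ind_smul (g : Equiv.Perm GolayPt) (X : Finset GolayPt) (q : GolayPt) :
    ind (g • X) q = ind X (g⁻¹ q) := by
  unfold ind
  have : q ∈ g • X ↔ g⁻¹ q ∈ X := by
    rw [← Finset.inv_smul_mem_iff]; rfl
  simp only [this]

theorem wI_lt : ∀ i, wI i < 24 := by decide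

def chkE (x : ℕ) : Bool :=
  !(Nat.beq (Nat.land x 0x149f) 0) || (List.range 24).all fun i =>
    x.testBit i == ((x.testBit 5 && (0xb66020 : ℕ).testBit i) ^^ ((x.testBit 6 && (0xecc040 : ℕ).testBit i) ^^
      ((x.testBit 8 && (0x3da100 : ℕ).testBit i) ^^ ((x.testBit 9 && (0x7b4200 : ℕ).testBit i) ^^
        (x.testBit 11 && (0xe3a800 : ℕ).testBit i)))))

theorem chkE_all : allRange (fun c => chkE (enc c)) 12 0 = true := by decide +kernel

theorem expand {c : Finset GolayPt} (hc : c ∈ CS) (hO : Disjoint c O0) (q : GolayPt) :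
    ind c q = ∑ k, ind c (pt (wI k)) * ind (unmask (bM k)) q := by
  have h1 := forall_code chkE chkE_all c hc
  have h2 : Nat.land (mask c) 0x149f = 0 := by
    have h3 : mask (c ∩ O0) = 0 := by
      rw [Finset.disjoint_iff_inter_eq_empty.mp hO, mask_empty]
    rw [mask_inter, O0, mask_unmask (by norm_num)] at h3
    exact h3
  unfold chkE at h1
  rw [h2] at h1
  simp only [Nat.beq_refl, Bool.not_true, Bool.false_or, List.all_eq_true, List.mem_range,
    beq_iff_eq] at h1
  have h4 := h1 (idx q) (idx_lt q)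
  rw [Fin.sum_univ_five]
  simp only [ind_eq c, ind_unmask, idx_pt (wI_lt _)]
  rw [h4]
  simp only [toZ_xor, toZ_and]
  simp only [wI, bM]
  simp [add_assoc]


theorem bM_mem : ∀ j, bM j ∈ basisList := by decide

theorem bM_lt : ∀ j, bM j < 2 ^ 24 := by decide

theorem B_mem (j : Fin 5) : unmask (bM j) ∈ CS := (basis_octads _ (bM_mem j)).1

theorem B_disj (j : Fin 5) : Disjoint (unmask (bM j)) O0 := by
  rw [Finset.disjoint_iff_inter_eq_empty]
  apply mask_injective
  rw [mask_inter, mask_unmask (bM_lt j), O0, mask_unmask (by norm_num), mask_empty]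
  revert j
  decide

theorem smul_disj {h : Equiv.Perm GolayPt} (hO : h • O0 = O0) {X : Finset GolayPt}
    (hX : Disjoint X O0) : Disjoint (h • X) O0 := by
  rw [Finset.disjoint_left] at hX ⊢
  intro x hx hx2
  obtain ⟨y, hy, rfl⟩ := Finset.mem_smul_finset.mp hx
  rw [← hO, Finset.smul_mem_smul_finset_iff] at hx2
  exact hX hy hx2

/-- the matrix of a permutation on the basis words. -/
def Mx (g : Equiv.Perm GolayPt) : Matrix (Fin 5) (Fin 5) (ZMod 2) :=
  fun i j => ind (g • unmask (bM j)) (pt (wI i))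

theorem Mx_mul (g : Equiv.Perm GolayPt) {h : Equiv.Perm GolayPt} (hh : h ∈ M24)
    (hO : h • O0 = O0) : Mx (g * h) = Mx g * Mx h := by
  ext i j
  rw [Matrix.mul_apply]
  show ind ((g * h) • unmask (bM j)) (pt (wI i)) = _
  rw [mul_smul, ind_smul, expand (smul_mem_CS hh (B_mem j)) (smul_disj hO (B_disj j))]
  apply Finset.sum_congr rfl
  intro k _
  show _ = ind (g • unmask (bM k)) (pt (wI i)) * ind (h • unmask (bM j)) (pt (wI k))
  rw [ind_smul g, mul_comm]

theorem Mx_word (w : List ℕ) (i j : Fin 5) :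
    Mx (wperm w) i j = toZ ((bM j).testBit (wact (winv w) (wI i))) := by
  show ind (wperm w • unmask (bM j)) (pt (wI i)) = _
  rw [ind_smul, ind_unmask, ← wperm_winv, idx_wperm, idx_pt (wI_lt i)]

theorem Mx_one : Mx 1 = 1 := by
  have h : (1 : Equiv.Perm GolayPt) = wperm [] := by simp [wperm]
  ext i j
  rw [h, Mx_word, Matrix.one_apply]
  revert i j
  decide

def PP : Matrix (Fin 5) (Fin 5) (ZMod 2) :=
  !![1, 0, 1, 1, 0; 1, 1, 0, 0, 0; 1, 1, 1, 1, 0; 0, 0, 1, 0, 1; 0, 1, 1, 0, 0]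

def PI : Matrix (Fin 5) (Fin 5) (ZMod 2) :=
  !![1, 1, 1, 0, 0; 1, 0, 1, 0, 0; 1, 0, 1, 0, 1; 1, 1, 0, 0, 1; 1, 0, 1, 1, 1]

theorem PI_PP : PI * PP = 1 := by decide +kernel
theorem PP_PI : PP * PI = 1 := by decide +kernel

/-- the matrix in the adapted basis. -/
def Ph (g : Equiv.Perm GolayPt) : Matrix (Fin 5) (Fin 5) (ZMod 2) := PP * Mx g * PI

theorem Ph_mul (g : Equiv.Perm GolayPt) {h : Equiv.Perm GolayPt} (hh : h ∈ M24)
    (hO : h • O0 = O0) : Ph (g * h) = Ph g * Ph h := by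
  unfold Ph
  rw [Mx_mul g hh hO]
  calc PP * (Mx g * Mx h) * PI = PP * Mx g * 1 * Mx h * PI := by
        simp only [Matrix.mul_one, Matrix.mul_assoc]
    _ = PP * Mx g * PI * (PP * Mx h * PI) := by
        rw [← PI_PP]; simp only [Matrix.mul_assoc]

theorem Ph_one : Ph 1 = 1 := by
  unfold Ph
  rw [Mx_one, Matrix.mul_one, PP_PI]

theorem Ph_z : Ph (wperm zAw) = Matrix.transvection 0 1 1 := by
  have h : Mx (wperm zAw) = Matrix.of fun i j => toZ ((bM j).testBit (wact (winv zAw) (wI i))) := by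
    ext i j
    exact Mx_word zAw i j
  unfold Ph
  rw [h]
  decide +kernel

theorem Ph_inj {g : Equiv.Perm GolayPt} (h : Ph g = 1) : Mx g = 1 := by
  unfold Ph at h
  have h2 : PI * (PP * Mx g * PI) * PP = PI * 1 * PP := by rw [h]
  rw [Matrix.mul_one, PI_PP] at h2
  have h3 : PI * (PP * Mx g * PI) * PP = (PI * PP) * Mx g * (PI * PP) := by
    simp only [Matrix.mul_assoc]
  rw [h3, PI_PP, Matrix.one_mul, Matrix.mul_one] at h2
  exact h2

end Cfsg.Agent.Lib.Helper3.CZ
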