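import Mathlib
import Cfsg.Agent.Lib.Helper3.CZ1
import Cfsg.Agent.S0381

set_option autoImplicit false

namespace Cfsg.Agent.Lib.Helper3.CZ

open Cfsg Cfsg.Agent.Lib.Helper3
open scoped Pointwise

theorem card_le_of_conj {G : Type*} [Group G] [Finite G] (S : Subgroup G) (z : G) (T : Set G)
    (hT : ∀ g ∈ S, g * z * g⁻¹ ∈ T) :
    Nat.card S ≤ Nat.card T * Nat.card (Subgroup.centralizer ({z} : Set G)) := by
  classical
  have hr : ∀ t : G, ∃ r : G, (∃ g : G, g * z * g⁻¹ = t) → r * z * r⁻¹ = t := by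
    intro t
    by_cases h : ∃ g : G, g * z * g⁻¹ = t
    · obtain ⟨g, hg⟩ := h; exact ⟨g, fun _ => hg⟩
    · exact ⟨1, fun h' => absurd h' h⟩
  choose r hr using hr
  have hmem : ∀ g : G, (r (g * z * g⁻¹))⁻¹ * g ∈ Subgroup.centralizer ({z} : Set G) := by
    intro g
    rw [Subgroup.mem_centralizer_iff]
    intro y hy
    rw [Set.mem_singleton_iff] at hy
    subst hy
    have h := hr (g * y * g⁻¹) ⟨g, rfl⟩
    generalize r (g * y * g⁻¹) = s at h
    apply mul_left_cancel (a := s)
    have e : s * (y * (s⁻¹ * g)) = (s * y * s⁻¹) * g := by group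
    rw [e, h]
    group
  let f : S → T × Subgroup.centralizer ({z} : Set G) := fun g =>
    (⟨g.1 * z * g.1⁻¹, hT g.1 g.2⟩, ⟨(r (g.1 * z * g.1⁻¹))⁻¹ * g.1, hmem g.1⟩)
  have hf : Function.Injective f := by
    intro a b hab
    have h1 : a.1 * z * a.1⁻¹ = b.1 * z * b.1⁻¹ := congrArg (fun p => p.1.1) hab
    have h2 : (r (a.1 * z * a.1⁻¹))⁻¹ * a.1 = (r (b.1 * z * b.1⁻¹))⁻¹ * b.1 :=
      congrArg (fun p => p.2.1) hab
    rw [h1] at h2
    exact Subtype.ext (mul_left_cancel h2)
  have := Nat.card_le_card_of_injective f hf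
  rwa [Nat.card_prod] at this

noncomputable def zz : ↥M24 := ⟨wperm zAw, wperm_mem zAw⟩

theorem orderOf_zz : orderOf zz = 2 := by
  rw [← Subgroup.orderOf_coe]; exact orderOf_zA

theorem Cz_O0 (g : ↥(Subgroup.centralizer ({zz} : Set ↥M24))) : g.1.1 • O0 = O0 := by
  have h1 : zz * g.1 = g.1 * zz := Subgroup.mem_centralizer_iff.mp g.2 zz rfl
  have h2 : g.1.1 * wperm zAw * g.1.1⁻¹ = wperm zAw := by
    have h3 : wperm zAw * g.1.1 = g.1.1 * wperm zAw := congrArg Subtype.val h1
    rw [mul_inv_eq_iff_eq_mul]; exact h3.symm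
  have h3 := Fx_conj g.1.1 (wperm zAw)
  rw [h2, Fx_zA] at h3
  exact h3.symm

theorem det_Ph (g : ↥(Subgroup.centralizer ({zz} : Set ↥M24))) : (Ph g.1.1).det = 1 := by
  have h := Ph_mul g.1.1 (g⁻¹).1.2 (Cz_O0 g⁻¹)
  have h1 : g.1.1 * (g⁻¹).1.1 = 1 := by
    show ((g * g⁻¹ : ↥(Subgroup.centralizer ({zz} : Set ↥M24))).1.1) = 1
    rw [mul_inv_cancel]; rfl
  rw [h1, Ph_one] at h
  have h2 := congrArg Matrix.det h
  rw [Matrix.det_one, Matrix.det_mul] at h2
  have : ∀ a b : ZMod 2, 1 = a * b → a = 1 := by decide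
  exact this _ _ h2

noncomputable def Phi : ↥(Subgroup.centralizer ({zz} : Set ↥M24)) →*
    Matrix.SpecialLinearGroup (Fin 5) (ZMod 2) :=
  MonoidHom.mk' (fun g => ⟨Ph g.1.1, det_Ph g⟩)
    (fun a b => Subtype.ext (Ph_mul a.1.1 b.1.2 (Cz_O0 b)))

theorem sepN : ∀ a < 24, ∀ b < 24, (0x149f : ℕ).testBit a = false → (0x149f : ℕ).testBit b = false →
    (∀ j, (bM j).testBit a = (bM j).testBit b) → a = b := by decide +kernel

theorem ind_inj {X Y : Finset GolayPt} {q q' : GolayPt} (h : ind X q = ind Y q') :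
    q ∈ X ↔ q' ∈ Y := by
  unfold ind at h
  by_cases h1 : q ∈ X <;> by_cases h2 : q' ∈ Y <;> simp [h1, h2] at h ⊢

theorem Phi_inj : Function.Injective Phi := by
  rw [injective_iff_map_eq_one]
  intro g hg
  have h1 : Ph g.1.1 = 1 := congrArg Subtype.val hg
  have h2 := Ph_inj h1
  have h3 : ∀ j, g.1.1 • unmask (bM j) = unmask (bM j) := by
    intro j
    ext q
    have e1 := expand (smul_mem_CS g.1.2 (B_mem j)) (smul_disj (Cz_O0 g) (B_disj j)) q
    have e2 := expand (B_mem j) (B_disj j) q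
    have e3 : ∀ k, ind (g.1.1 • unmask (bM j)) (pt (wI k)) = ind (unmask (bM j)) (pt (wI k)) := by
      intro k
      have a1 : Mx g.1.1 k j = (1 : Matrix (Fin 5) (Fin 5) (ZMod 2)) k j := by rw [h2]
      have a2 : Mx 1 k j = (1 : Matrix (Fin 5) (Fin 5) (ZMod 2)) k j := by rw [Mx_one]
      have a3 : Mx 1 k j = ind (unmask (bM j)) (pt (wI k)) := by
        show ind ((1 : Equiv.Perm GolayPt) • _) _ = _
        rw [one_smul]
      exact a1.trans (a2.symm.trans a3)
    simp only [e3] at e1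
    exact ind_inj (e1.trans e2.symm)
  have h4 : ∀ q ∉ O0, g.1.1 q = q := by
    intro q hq
    have hgq : g.1.1 q ∉ O0 := by
      intro h
      apply hq
      rw [← Cz_O0 g] at h
      exact (Finset.smul_mem_smul_finset_iff g.1.1).mp h
    have h5 : ∀ j, g.1.1 q ∈ unmask (bM j) ↔ q ∈ unmask (bM j) := by
      intro j
      conv_lhs => rw [← h3 j]
      exact Finset.smul_mem_smul_finset_iff g.1.1
    apply idx_injective
    apply sepN _ (idx_lt _) _ (idx_lt _)
    · rw [O0, mem_unmask, Bool.not_eq_true] at hgq; exact hgq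
    · rw [O0, mem_unmask, Bool.not_eq_true] at hq; exact hq
    · intro j
      have := h5 j
      rw [mem_unmask, mem_unmask] at this
      exact Bool.eq_iff_iff.mpr this
  have h5 : g.1.1 = 1 := fix9 g.1.2 O0ᶜ (by
    rw [Finset.card_compl, card_O0]; decide) (fun p hp => h4 p (Finset.mem_compl.mp hp))
  exact Subtype.ext (Subtype.ext h5)

theorem card_Cz_ge : 21504 ≤ Nat.card ↥(Subgroup.centralizer ({zz} : Set ↥M24)) := by
  set E := M24 ⊓ fixingSubgroup (Equiv.Perm GolayPt) (O0 : Set GolayPt) with hE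
  have hE16 : Nat.card E = 16 := (Cfsg.Agent.S0381.result O0 O0_mem).1
  let T : Set ↥M24 := {e | e ≠ 1 ∧ e.1 ∈ E}
  have hS := card_stab_octad O0_mem
  have h1 := card_le_of_conj (MulAction.stabilizer M24 O0) zz T (by
    intro g hg
    refine ⟨?_, (g * zz * g⁻¹).2, ?_⟩
    · intro h
      have h2 : zz = 1 := by
        have : zz = g⁻¹ * (g * zz * g⁻¹) * g := by group
        rw [this, h]; group
      have h3 := orderOf_zz
      rw [h2, orderOf_one] at h3
      exact absurd h3 (by norm_num)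
    · show (g * zz * g⁻¹).1 ∈ fixingSubgroup (Equiv.Perm GolayPt) (O0 : Set GolayPt)
      rw [mem_fixingSubgroup_iff]
      intro p hp
      have h3 := Fx_conj g.1 (wperm zAw)
      have hg' : g.1 • O0 = O0 := hg
      rw [Fx_zA, hg'] at h3
      have hp' : p ∈ O0 := hp
      rw [← h3, mem_Fx] at hp'
      exact hp')
  have hT : Nat.card T + 1 ≤ 16 := by
    rw [← hE16, ← Finite.card_option]
    let f : Option T → E := fun o => match o with
      | none => 1
      | some t => ⟨t.1.1, t.2.2⟩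
    apply Nat.card_le_card_of_injective f
    intro a b hab
    match a, b with
    | none, none => rfl
    | none, some t =>
      exfalso
      apply t.2.1
      apply Subtype.ext
      have h9 : (f none).1 = (f (some t)).1 := congrArg Subtype.val hab
      exact h9.symm
    | some t, none =>
      exfalso
      apply t.2.1
      apply Subtype.ext
      have h9 : (f (some t)).1 = (f none).1 := congrArg Subtype.val hab
      exact h9
    | some t, some t' =>
      congr 1
      apply Subtype.ext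
      apply Subtype.ext
      have h9 : (f (some t)).1 = (f (some t')).1 := congrArg Subtype.val hab
      exact h9
  rw [hS] at h1
  by_contra hc
  push Not at hc
  have : Nat.card T * Nat.card ↥(Subgroup.centralizer ({zz} : Set ↥M24)) ≤ 15 * 21503 :=
    Nat.mul_le_mul (by omega) (by omega)
  omega

end Cfsg.Agent.Lib.Helper3.CZ
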