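import Mathlib
import Cfsg.Prelude.Def_Transfer
import Cfsg.Agent.Lib.Helper3.Golay
import Cfsg.Agent.Lib.Helper23.FrattiniP

set_option autoImplicit false

/-! Abelian subgroups of a group of order 512 from its commuting graph. -/

namespace Cfsg.Agent.Lib.Helper3.SQ

open Cfsg Cfsg.Agent.Lib.Helper3

def bits (m : ℕ) : Finset ℕ := (Finset.range 512).filter (fun i => m.testBit i = true)

theorem card_bits (m : ℕ) : (bits m).card = pcAux 512 m 0 := by
  rw [pcAux_eq, zero_add, bits, Finset.card_filter]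
  apply Finset.sum_congr rfl
  intro i _
  cases m.testBit i <;> rfl

theorem mem_bits {m i : ℕ} : i ∈ bits m ↔ i < 512 ∧ m.testBit i = true := by
  rw [bits, Finset.mem_filter, Finset.mem_range]

section
variable {X : Type*} [Group X] [Finite X] (φ : ℕ → X)

open Classical in
noncomputable def JJ (B : Set X) : Finset ℕ := (Finset.range 512).filter (fun i => φ i ∈ B)

theorem mem_JJ {B : Set X} {i : ℕ} : i ∈ JJ φ B ↔ i < 512 ∧ φ i ∈ B := by
  classical
  rw [JJ, Finset.mem_filter, Finset.mem_range]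

theorem card_JJ (hφ : ∀ x : X, ∃ i < 512, φ i = x)
    (hinj : ∀ i < 512, ∀ j < 512, φ i = φ j → i = j) (B : Set X) :
    (JJ φ B).card = B.ncard := by
  have h1 : B = φ '' (JJ φ B : Set ℕ) := by
    ext x
    constructor
    · intro hx
      obtain ⟨i, hi, rfl⟩ := hφ x
      exact ⟨i, (mem_JJ φ).2 ⟨hi, hx⟩, rfl⟩
    · rintro ⟨i, hi, rfl⟩
      exact ((mem_JJ φ).1 hi).2
  conv_rhs => rw [h1]
  rw [Set.ncard_image_of_injOn, Set.ncard_coe_finset]
  intro i hi j hj hij
  exact hinj i ((mem_JJ φ).1 hi).1 j ((mem_JJ φ).1 hj).1 hij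

theorem good_of_data (hX : Nat.card X = 512)
    (hφ : ∀ x : X, ∃ i < 512, φ i = x)
    (hinj : ∀ i < 512, ∀ j < 512, φ i = φ j → i = j)
    (N : ℕ → ℕ)
    (hN1 : ∀ i < 512, ∀ j < 512, Commute (φ i) (φ j) → (N i).testBit j = true)
    (J0 : ℕ)
    (hN2 : ∀ i < 512, ∀ j < 512, J0.testBit i = true → J0.testBit j = true →
      Commute (φ i) (φ j))
    (hsq : ∀ j < 512, J0.testBit j = true → φ j ^ 2 = 1)
    (c0 : pcAux 512 J0 0 = 64)
    (c1 : ((Finset.range 512).filter (fun i => 256 ≤ pcAux 512 (N i) 0)).card < 16)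
    (c2 : ∀ j < 512, (J0.testBit j = true ↔ ∀ i < 512, J0.testBit i = true → (N i).testBit j = true))
    (c3 : ∀ i < 512, J0.testBit i = false → ((Finset.range 512).filter (fun j =>
      (N i).testBit j = true ∧ 64 ≤ pcAux 512 (N i &&& N j) 0)).card < 64) :
    (∀ M : Subgroup X, IsCoatom M → Nat.card ↥(Subgroup.center ↥M) ≤ 8) ∧
      (∃ A : Subgroup X, Cfsg.IsElementaryAbelian 2 A ∧ Nat.card ↥A = 64) ∧
      ∀ A B : Subgroup X, IsMulCommutative ↥A → Nat.card ↥A = 64 → IsMulCommutative ↥B →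
        Nat.card ↥B = 64 → A = B := by
  have hcard := card_JJ φ hφ hinj
  have hp : IsPGroup 2 X := IsPGroup.of_card (n := 9) (by rw [hX]; norm_num)
  have : Fact (Nat.Prime 2) := ⟨Nat.prime_two⟩
  refine ⟨?_, ?_, ?_⟩
  · intro M hM
    have hidx := Cfsg.Agent.Lib.Helper23.coatom_index_of_isPGroup hp M hM
    have hMc : Nat.card M = 256 := by
      have := M.card_mul_index
      rw [hidx, hX] at this
      omega
    set ZM : Subgroup X := (Subgroup.center ↥M).map M.subtype with hZM
    have hZc : Nat.card ZM = Nat.card (Subgroup.center ↥M) :=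
      Subgroup.card_map_of_injective M.subtype_injective
    have hsub : JJ φ (ZM : Set X) ⊆ (Finset.range 512).filter (fun i => 256 ≤ pcAux 512 (N i) 0) := by
      intro j hj
      obtain ⟨hj1, hj2⟩ := (mem_JJ φ).1 hj
      rw [Finset.mem_filter, Finset.mem_range]
      refine ⟨hj1, ?_⟩
      have h1 : JJ φ (M : Set X) ⊆ bits (N j) := by
        intro k hk
        obtain ⟨hk1, hk2⟩ := (mem_JJ φ).1 hk
        rw [mem_bits]
        refine ⟨hk1, hN1 j hj1 k hk1 ?_⟩
        obtain ⟨c, hc, hcj⟩ := hj2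
        have h0 := Subgroup.mem_center_iff.mp hc ⟨φ k, hk2⟩
        have h2 : φ k * c.1 = c.1 * φ k := congrArg Subtype.val h0
        show φ j * φ k = φ k * φ j
        rw [← hcj]; exact h2.symm
      have h2 := Finset.card_le_card h1
      rw [hcard, card_bits] at h2
      have h3 : (M : Set X).ncard = 256 := by rw [← Nat.card_coe_set_eq]; exact hMc
      omega
    have h4 := Finset.card_le_card hsub
    rw [hcard, ← Nat.card_coe_set_eq] at h4
    have h5 : Nat.card ZM < 16 := lt_of_le_of_lt h4 c1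
    rw [hZc] at h5
    obtain ⟨n, hn⟩ := (IsPGroup.iff_card).mp ((hp.to_subgroup M).to_subgroup (Subgroup.center M))
    rw [hn] at h5 ⊢
    have h6 : n < 4 := (Nat.pow_lt_pow_iff_right (by norm_num : 1 < 2)).mp (by simpa using h5)
    interval_cases n <;> norm_num
  · set A : Subgroup X := Subgroup.centralizer (φ '' (bits J0 : Set ℕ)) with hA
    have hmem : ∀ j < 512, (φ j ∈ A ↔ J0.testBit j = true) := by
      intro j hj
      rw [hA, Subgroup.mem_centralizer_iff]
      constructor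
      · intro h
        rw [c2 j hj]
        intro i hi hiJ
        apply hN1 i hi j hj
        exact h (φ i) ⟨i, mem_bits.2 ⟨hi, hiJ⟩, rfl⟩
      · rintro h _ ⟨i, hi, rfl⟩
        obtain ⟨hi1, hi2⟩ := mem_bits.1 hi
        exact hN2 i hi1 j hj hi2 h
    have hJA : JJ φ (A : Set X) = bits J0 := by
      ext j
      rw [mem_JJ, mem_bits]
      constructor
      · rintro ⟨h1, h2⟩; exact ⟨h1, (hmem j h1).1 h2⟩
      · rintro ⟨h1, h2⟩; exact ⟨h1, (hmem j h1).2 h2⟩
    refine ⟨A, ⟨⟨⟨fun a b => ?_⟩⟩, ?_⟩, ?_⟩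
    · obtain ⟨i, hi, hia⟩ := hφ a.1
      have hiJ := (hmem i hi).1 (hia ▸ a.2)
      apply Subtype.ext
      exact Subgroup.mem_centralizer_iff.mp b.2 a.1 ⟨i, mem_bits.2 ⟨hi, hiJ⟩, hia⟩
    · intro a ha
      obtain ⟨i, hi, rfl⟩ := hφ a
      exact hsq i hi ((hmem i hi).1 ha)
    · have h1 : Nat.card ↥A = (A : Set X).ncard := Nat.card_coe_set_eq _
      rw [h1, ← hcard, hJA, card_bits, c0]
  · have key : ∀ A : Subgroup X, IsMulCommutative ↥A → Nat.card ↥A = 64 →
        JJ φ (A : Set X) = bits J0 := by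
      intro A hA hA64
      have hc : (JJ φ (A : Set X)).card = 64 := by
        rw [hcard, ← Nat.card_coe_set_eq]; exact hA64
      have hcl : ∀ i ∈ JJ φ (A : Set X), ∀ j ∈ JJ φ (A : Set X), (N i).testBit j = true := by
        intro i hi j hj
        obtain ⟨hi1, hi2⟩ := (mem_JJ φ).1 hi
        obtain ⟨hj1, hj2⟩ := (mem_JJ φ).1 hj
        apply hN1 i hi1 j hj1
        have h0 := hA.is_comm.comm ⟨φ i, hi2⟩ ⟨φ j, hj2⟩
        exact congrArg Subtype.val h0
      apply Finset.eq_of_subset_of_card_le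
      · intro i hi
        obtain ⟨hi1, hi2⟩ := (mem_JJ φ).1 hi
        rw [mem_bits]
        refine ⟨hi1, ?_⟩
        by_contra hb
        rw [Bool.not_eq_true] at hb
        have h3 := c3 i hi1 hb
        have h4 : JJ φ (A : Set X) ⊆ (Finset.range 512).filter (fun j =>
            (N i).testBit j = true ∧ 64 ≤ pcAux 512 (N i &&& N j) 0) := by
          intro j hj
          obtain ⟨hj1, hj2⟩ := (mem_JJ φ).1 hj
          rw [Finset.mem_filter, Finset.mem_range]
          refine ⟨hj1, hcl i hi j hj, ?_⟩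
          rw [← card_bits, ← hc]
          apply Finset.card_le_card
          intro k hk
          rw [mem_bits, Nat.testBit_and, Bool.and_eq_true]
          exact ⟨((mem_JJ φ).1 hk).1, hcl i hi k hk, hcl j hj k hk⟩
        have h5 := Finset.card_le_card h4
        omega
      · rw [hc, card_bits, c0]
    intro A B hA hA64 hB hB64
    have h1 := (key A hA hA64).trans (key B hB hB64).symm
    ext x
    obtain ⟨i, hi, rfl⟩ := hφ x
    have h2 : i ∈ JJ φ (A : Set X) ↔ i ∈ JJ φ (B : Set X) := by rw [h1]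
    rw [mem_JJ, mem_JJ] at h2
    constructor
    · intro h; exact (h2.1 ⟨hi, h⟩).2
    · intro h; exact (h2.2 ⟨hi, h⟩).2

end

end Cfsg.Agent.Lib.Helper3.SQ
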