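import Mathlib
import Cfsg.Agent.Lib.Helper3.SQ1
import Cfsg.Agent.Lib.Helper3.SQData

set_option autoImplicit false
set_option maxRecDepth 100000

namespace Cfsg.Agent.Lib.Helper3.SQ

open Cfsg Cfsg.Agent.Lib.Helper3

def forceN (X : ℕ) (k : ℕ → ℕ) : ℕ :=
  match X with
  | 0 => k 0
  | Nat.succ n => k (Nat.succ n)

theorem forceN_eq (X : ℕ) (k : ℕ → ℕ) : forceN X k = k X := by
  cases X <;> rfl

/-- number of ones of an 8 bit number, by table. -/
def pc8 (c : ℕ) : ℕ := Nat.land (Nat.shiftRight 0x8776766576656554766565546554544376656554655454436554544354434332766565546554544365545443544343326554544354434332544343324332322176656554655454436554544354434332655454435443433254434332433232216554544354434332544343324332322154434332433232214332322132212110 (Nat.mul 4 c)) 15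

theorem pc8_eq : ∀ c < 256, pc8 c = pcAux 8 c 0 := by decide +kernel

def pcC : ℕ → ℕ → ℕ → ℕ
  | 0, _, acc => acc
  | k+1, n, acc => forceN (Nat.shiftRight n 8) fun n' =>
      forceN (Nat.add acc (pc8 (Nat.land n 255))) fun a' => pcC k n' a'

theorem pcC_eq (k n acc : ℕ) :
    pcC k n acc = acc + ∑ i ∈ Finset.range (8 * k), (n.testBit i).toNat := by
  induction k generalizing n acc with
  | zero => simp [pcC]
  | succ k ih =>
    rw [pcC, forceN_eq, forceN_eq, ih, show 8 * (k + 1) = 8 + 8 * k by ring, Finset.sum_range_add]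
    have h0 : Nat.land n 255 < 256 := by
      show n &&& 255 < 256
      exact Nat.lt_succ_of_le Nat.and_le_right
    rw [pc8_eq _ h0, pcAux_eq, zero_add]
    have h1 : ∑ i ∈ Finset.range 8, ((Nat.land n 255).testBit i).toNat =
        ∑ i ∈ Finset.range 8, (n.testBit i).toNat := by
      apply Finset.sum_congr rfl
      intro i hi
      show ((n &&& 255).testBit i).toNat = _
      rw [Nat.testBit_and, show (255 : ℕ) = 2 ^ 8 - 1 from rfl, Nat.testBit_two_pow_sub_one,
        decide_eq_true (Finset.mem_range.mp hi), Bool.and_true]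
    have h2 : ∑ i ∈ Finset.range (8 * k), ((Nat.shiftRight n 8).testBit i).toNat =
        ∑ i ∈ Finset.range (8 * k), (n.testBit (8 + i)).toNat := by
      apply Finset.sum_congr rfl
      intro i _
      show ((n >>> 8).testBit i).toNat = _
      rw [Nat.testBit_shiftRight]
    rw [h1, h2]
    show acc + _ + _ = _
    ring

theorem pcC_512 (m : ℕ) : pcC 64 m 0 = pcAux 512 m 0 := by
  rw [pcC_eq, pcAux_eq]

theorem c0 : pcAux 512 J0 0 = 64 := by
  rw [← pcC_512]; decide +kernel

theorem c1 : ((Finset.range 512).filter (fun i => 256 ≤ pcAux 512 (Nf i) 0)).card < 16 := by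
  simp only [← pcC_512]; decide +kernel

theorem c2 : ∀ j < 512, (J0.testBit j = true ↔
    ∀ i < 512, J0.testBit i = true → (Nf i).testBit j = true) := by decide +kernel

theorem c3 : ∀ i < 512, J0.testBit i = false → ((Finset.range 512).filter (fun j =>
    (Nf i).testBit j = true ∧ 64 ≤ pcAux 512 (Nf i &&& Nf j) 0)).card < 64 := by
  simp only [← pcC_512]; decide +kernel

end Cfsg.Agent.Lib.Helper3.SQ
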