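import Mathlib
import Cfsg.Agent.Lib.Helper3.SQData
import Cfsg.Agent.Lib.Helper3.SylTab
import Cfsg.Agent.Lib.Helper3.SylData24

set_option autoImplicit false
set_option maxRecDepth 100000

namespace Cfsg.Agent.Lib.Helper3.SQ

open Cfsg Cfsg.Agent.Lib.Helper3 Cfsg.Agent.Lib.Helper3.Syl

def Q24 : List ℕ := [0, 1, 2, 3, 4, 5, 6, 7, 8, 9, 10, 11, 12, 13, 14, 15, 16, 17, 18, 19, 20, 21, 22, 23]

theorem Q24_mem : ∀ p < 24, p ∈ Q24 := by decide
theorem Q24_lt : ∀ p ∈ Q24, p < 24 := by decide

theorem nbeq_iff (a b : ℕ) : Nat.beq a b = true ↔ a = b :=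
  ⟨Nat.eq_of_beq_eq_true, fun h => h ▸ Nat.beq_refl a⟩

def cz (T U : ℕ) : Bool :=
  (Q24.all fun p => Nat.beq (look T (look U p)) (look U (look T p))) ||
  (Q24.all fun p => Nat.beq (look T (look U p)) (look U (look T (look D24.Tz p))))

theorem cz_iff (T U : ℕ) : cz T U = true ↔
    (∀ p < 24, look T (look U p) = look U (look T p)) ∨
    (∀ p < 24, look T (look U p) = look U (look T (look D24.Tz p))) := by
  unfold cz
  simp only [Bool.or_eq_true, List.all_eq_true, nbeq_iff]
  constructor
  · rintro (h | h)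
    · exact Or.inl fun p hp => h p (Q24_mem p hp)
    · exact Or.inr fun p hp => h p (Q24_mem p hp)
  · rintro (h | h)
    · exact Or.inl fun p hp => h p (Q24_lt p hp)
    · exact Or.inr fun p hp => h p (Q24_lt p hp)

def sqz (T : ℕ) : Bool :=
  (Q24.all fun p => Nat.beq (look T (look T p)) p) ||
  (Q24.all fun p => Nat.beq (look T (look T p)) (look D24.Tz p))

theorem sqz_iff (T : ℕ) : sqz T = true ↔
    (∀ p < 24, look T (look T p) = p) ∨ (∀ p < 24, look T (look T p) = look D24.Tz p) := by
  unfold sqz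
  simp only [Bool.or_eq_true, List.all_eq_true, nbeq_iff]
  constructor
  · rintro (h | h)
    · exact Or.inl fun p hp => h p (Q24_mem p hp)
    · exact Or.inr fun p hp => h p (Q24_mem p hp)
  · rintro (h | h)
    · exact Or.inl fun p hp => h p (Q24_lt p hp)
    · exact Or.inr fun p hp => h p (Q24_lt p hp)

def orQ (f : ℕ → ℕ) : List ℕ → ℕ
  | [] => 0
  | q :: l => Nat.lor (f q) (orQ f l)

theorem orQ_bit {f : ℕ → ℕ} {l : List ℕ} {q j : ℕ} (hq : q ∈ l) (h : (f q).testBit j = true) :
    (orQ f l).testBit j = true := by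
  induction l with
  | nil => simp at hq
  | cons a l ih =>
    show (f a ||| orQ f l).testBit j = true
    rw [Nat.testBit_or, Bool.or_eq_true]
    rcases List.mem_cons.1 hq with rfl | hq
    · exact Or.inl h
    · exact Or.inr (ih hq)

def andL (f : ℕ → ℕ) : List ℕ → ℕ
  | [] => 2 ^ 512 - 1
  | p :: l => Nat.land (f p) (andL f l)

theorem andL_bit {f : ℕ → ℕ} {l : List ℕ} {j : ℕ} (hj : j < 512)
    (h : ∀ p ∈ l, (f p).testBit j = true) : (andL f l).testBit j = true := by
  induction l with
  | nil =>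
    show (2 ^ 512 - 1).testBit j = true
    rw [Nat.testBit_two_pow_sub_one]; exact decide_eq_true hj
  | cons a l ih =>
    show (f a &&& andL f l).testBit j = true
    rw [Nat.testBit_and, Bool.and_eq_true]
    exact ⟨h a (List.mem_cons_self), ih fun p hp => h p (List.mem_cons_of_mem _ hp)⟩

def cm1 (T : ℕ) : ℕ :=
  andL (fun p => orQ (fun q => Nat.land (Ef p q) (Ef (look T p) (look T q))) Q24) LL
def cm2 (T : ℕ) : ℕ :=
  andL (fun p => orQ (fun q => Nat.land (Ef p q) (Ef (look T (look D24.Tz p)) (look T q))) Q24) LL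

def chkK : Bool := (List.range 512).all fun i => force (rp i) fun T =>
  Nat.beq (Nat.lor (cm1 T) (cm2 T)) (Nf i)

def chkE1 : Bool := (List.range 512).all fun j => force (rp j) fun U =>
  Q24.all fun p => force (look U p) fun q => Nat.blt q 24 && (Ef p q).testBit j

theorem kE' : chkE1 = true := by decide +kernel
theorem kK' : chkK = true := by decide +kernel

theorem e1 : ∀ j < 512, ∀ p < 24, look (rp j) p < 24 ∧ (Ef p (look (rp j) p)).testBit j = true := by
  intro j hj p hp
  have h := kE'
  unfold chkE1 at h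
  simp only [List.all_eq_true, List.mem_range, force_eq, Bool.and_eq_true] at h
  have h2 := h j hj p (Q24_mem p hp)
  exact ⟨by simpa [Nat.blt_eq] using h2.1, h2.2⟩

theorem kK : ∀ i < 512, Nat.lor (cm1 (rp i)) (cm2 (rp i)) = Nf i := by
  intro i hi
  have h := kK'
  unfold chkK at h
  simp only [List.all_eq_true, List.mem_range, force_eq, nbeq_iff] at h
  exact h i hi

theorem LL_lt : ∀ p ∈ LL, p < 24 := by decide
theorem Tz_lt : ∀ p < 24, look D24.Tz p < 24 := by decide

theorem cz_bit {i j : ℕ} (hi : i < 512) (hj : j < 512) (h : cz (rp i) (rp j) = true) :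
    (Nf i).testBit j = true := by
  rw [← kK i hi]
  show (cm1 (rp i) ||| cm2 (rp i)).testBit j = true
  rw [Nat.testBit_or, Bool.or_eq_true]
  rcases (cz_iff _ _).1 h with h | h
  · left
    apply andL_bit hj
    intro p hp
    have hp' := LL_lt p hp
    obtain ⟨a1, a2⟩ := e1 j hj p hp'
    apply orQ_bit (Q24_mem _ a1)
    show (Ef p _ &&& Ef _ _).testBit j = true
    rw [Nat.testBit_and, Bool.and_eq_true]
    refine ⟨a2, ?_⟩
    have a3 := (e1 j hj _ (e1 i hi p hp').1).2
    rw [← h p hp'] at a3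
    exact a3
  · right
    apply andL_bit hj
    intro p hp
    have hp' := LL_lt p hp
    obtain ⟨a1, a2⟩ := e1 j hj p hp'
    apply orQ_bit (Q24_mem _ a1)
    show (Ef p _ &&& Ef _ _).testBit j = true
    rw [Nat.testBit_and, Bool.and_eq_true]
    refine ⟨a2, ?_⟩
    have a3 := (e1 j hj _ (e1 i hi _ (Tz_lt p hp')).1).2
    rw [← h p hp'] at a3
    exact a3

theorem k1 : ∀ i < 512, memB (rp i) D24.tabs = true := by decide +kernel
theorem k2' : ∀ i < 511, rp i < rp (i + 1) := by decide +kernel
theorem k3 : ∀ i < 512, rp i < packF (fun p => look (rp i) (look D24.Tz p)) := by decide +kernel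
theorem k5 : ∀ j < 512, J0.testBit j = true → sqz (rp j) = true := by decide +kernel
theorem k6 : ∀ i < 512, J0.testBit i = true → ∀ j < 512, J0.testBit j = true →
    cz (rp i) (rp j) = true := by decide +kernel

theorem rp_mono : ∀ j < 512, ∀ i < j, rp i < rp j := by
  intro j
  induction j with
  | zero => intro _ i hi; omega
  | succ j ih =>
    intro hj i hi
    have h1 := k2' j (by omega)
    rcases Nat.lt_succ_iff_lt_or_eq.1 hi with h | rfl
    · exact lt_trans (ih (by omega) i h) h1
    · exact h1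

theorem k2 : ∀ i < 512, ∀ j < 512, rp i = rp j → i = j := by
  intro i hi j hj h
  rcases lt_trichotomy i j with h1 | h1 | h1
  · exact absurd h (ne_of_lt (rp_mono j hj i h1))
  · exact h1
  · exact absurd h.symm (ne_of_lt (rp_mono i hi j h1))

end Cfsg.Agent.Lib.Helper3.SQ
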