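import Mathlib
import Cfsg.Agent.Lib.Helper3.SQ2
import Cfsg.Agent.Lib.Helper3.SQ3
import Cfsg.Agent.Lib.Helper3.SylGroups
import Cfsg.Agent.Lib.Helper3.ClassFix

set_option autoImplicit false

namespace Cfsg.Agent.Lib.Helper3.SQ

open Cfsg Cfsg.Agent.Lib.Helper3 Cfsg.Agent.Lib.Helper3.Syl

noncomputable abbrev P0 : Subgroup (Equiv.Perm GolayPt) := SP (bld D24.wz D24.rc)

theorem hT : IsTab P0 D24.tabs :=
  ⟨closed_sound D24.h1 D24.h2, par_sound D24.h1 D24.h3, D24.h4, nodupB_sound D24.h5⟩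

theorem card_P0 : Nat.card P0 = 1024 := by rw [hT.card, D24.h6]; norm_num

theorem P0_le : P0 ≤ M24 := by
  unfold P0 SP
  rw [Subgroup.closure_le]
  rintro _ ⟨w, _, rfl⟩
  exact wperm_mem w

noncomputable def z0 : Equiv.Perm GolayPt := wperm D24.wz

theorem z0_tab : HasTab z0 D24.Tz := hasTab_wperm D24.h9

theorem z0_sq : z0 * z0 = 1 := by
  have := wperm_pow_eq_one (w := D24.wz) (n := 2) (by decide +kernel)
  rwa [pow_two] at this

theorem z0_ne : z0 ≠ 1 := by
  intro h
  have h1 := z0_tab (pt 5)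
  rw [h, Equiv.Perm.one_apply, idx_pt (by norm_num)] at h1
  revert h1
  decide

theorem eq_iff_fun {x y : Equiv.Perm GolayPt} {f f' : ℕ → ℕ} (hx : ∀ q, idx (x q) = f (idx q))
    (hy : ∀ q, idx (y q) = f' (idx q)) : x = y ↔ ∀ p < 24, f p = f' p := by
  constructor
  · rintro rfl p hp
    have h1 := hx (pt p)
    have h2 := hy (pt p)
    rw [idx_pt hp] at h1 h2
    rw [← h1, ← h2]
  · intro h
    apply Equiv.ext
    intro q
    apply idx_injective
    rw [hx, hy, h _ (idx_lt q)]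

theorem center_sub (c : ↥P0) (hc : c ∈ Subgroup.center ↥P0) : c.1 = 1 ∨ c.1 = z0 := by
  apply centre_sound hT (chkGen_2 D24.h1) D24.h8 z0_tab c.1 c.2
  intro x hx
  have := Subgroup.mem_center_iff.mp hc ⟨x, hx⟩
  exact congrArg Subtype.val this

theorem fin_P0 : Finite ↥P0 := Nat.finite_of_card_ne_zero (by rw [card_P0]; norm_num)

theorem exists_zc : ∃ c : ↥P0, c ∈ Subgroup.center ↥P0 ∧ c.1 = z0 := by
  have hfin := fin_P0
  have hp : IsPGroup 2 ↥P0 := IsPGroup.of_card (n := 10) (by rw [card_P0]; norm_num)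
  have : Fact (Nat.Prime 2) := ⟨Nat.prime_two⟩
  have hnt : Nontrivial ↥P0 := Finite.one_lt_card_iff_nontrivial.mp (by rw [card_P0]; norm_num)
  have := hp.center_nontrivial
  obtain ⟨c, hc⟩ := exists_ne (1 : Subgroup.center ↥P0)
  refine ⟨c.1, c.2, ?_⟩
  rcases center_sub c.1 c.2 with h | h
  · exfalso
    apply hc
    apply Subtype.ext
    apply Subtype.ext
    exact h
  · exact h

theorem mem_center' (c : ↥P0) : c ∈ Subgroup.center ↥P0 ↔ c.1 = 1 ∨ c.1 = z0 := by
  constructor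
  · exact center_sub c
  · rintro (h | h)
    · have : c = 1 := Subtype.ext h
      rw [this]; exact one_mem _
    · obtain ⟨d, hd, hdz⟩ := exists_zc
      have : c = d := Subtype.ext (h.trans hdz.symm)
      rw [this]; exact hd

theorem card_center : Nat.card (Subgroup.center ↥P0) = 2 := by
  obtain ⟨d, hd, hdz⟩ := exists_zc
  rw [Nat.card_eq_two_iff]
  refine ⟨1, ⟨d, hd⟩, ?_, ?_⟩
  · intro h
    have h2 : d.1 = 1 := congrArg (fun x : Subgroup.center ↥P0 => x.1.1) h.symm
    exact z0_ne (hdz.symm.trans h2)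
  · ext c
    simp only [Set.mem_insert_iff, Set.mem_singleton_iff, Set.mem_univ, iff_true]
    rcases center_sub c.1 c.2 with h | h
    · left; exact Subtype.ext (Subtype.ext h)
    · right; exact Subtype.ext (Subtype.ext (h.trans hdz.symm))

abbrev X0 := ↥P0 ⧸ Subgroup.center ↥P0

theorem card_X0 : Nat.card X0 = 512 := by
  have := Subgroup.card_eq_card_quotient_mul_card_subgroup (Subgroup.center ↥P0)
  rw [card_P0, card_center] at this
  have h : 1024 = Nat.card X0 * 2 := this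
  omega

theorem mk_eq_iff (a b : ↥P0) :
    (QuotientGroup.mk a : X0) = QuotientGroup.mk b ↔ b.1 = a.1 ∨ b.1 = a.1 * z0 := by
  rw [QuotientGroup.eq, mem_center']
  show a.1⁻¹ * b.1 = 1 ∨ a.1⁻¹ * b.1 = z0 ↔ _
  rw [inv_mul_eq_one, inv_mul_eq_iff_eq_mul]
  constructor
  · rintro (h | h)
    · exact Or.inl h.symm
    · exact Or.inr h
  · rintro (h | h)
    · exact Or.inl h.symm
    · exact Or.inr h

theorem commute_iff {a b : ↥P0} {Ta Tb : ℕ} (ha : HasTab a.1 Ta) (hb : HasTab b.1 Tb) :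
    Commute (QuotientGroup.mk a : X0) (QuotientGroup.mk b) ↔ cz Ta Tb = true := by
  rw [cz_iff]
  show (QuotientGroup.mk a : X0) * QuotientGroup.mk b = QuotientGroup.mk b * QuotientGroup.mk a ↔ _
  rw [← QuotientGroup.mk_mul, ← QuotientGroup.mk_mul, eq_comm, mk_eq_iff]
  have f1 : ∀ q, idx ((a.1 * b.1) q) = look Ta (look Tb (idx q)) := ha.mul_fun hb
  have f2 : ∀ q, idx ((b.1 * a.1) q) = look Tb (look Ta (idx q)) := hb.mul_fun ha
  have f3 : ∀ q, idx ((b.1 * a.1 * z0) q) = look Tb (look Ta (look D24.Tz (idx q))) := by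
    intro q
    rw [Equiv.Perm.mul_apply, f2, z0_tab]
  show a.1 * b.1 = b.1 * a.1 ∨ a.1 * b.1 = b.1 * a.1 * z0 ↔ _
  rw [eq_iff_fun (f := fun p => look Ta (look Tb p)) (f' := fun p => look Tb (look Ta p)) f1 f2,
    eq_iff_fun (f := fun p => look Ta (look Tb p))
      (f' := fun p => look Tb (look Ta (look D24.Tz p))) f1 f3]

theorem exists_g : ∃ g : ℕ → ↥P0, ∀ i < 512, HasTab (g i).1 (rp i) := by
  have : ∀ i, ∃ g : ↥P0, i < 512 → HasTab g.1 (rp i) := by
    intro i
    by_cases hi : i < 512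
    · obtain ⟨g, hg, hgt⟩ := hT.B (rp i) (memB_iff.1 (k1 i hi))
      exact ⟨⟨g, hg⟩, fun _ => hgt⟩
    · exact ⟨1, fun h => absurd h hi⟩
  choose g hg using this
  exact ⟨g, hg⟩

theorem data0 : ∃ φ : ℕ → X0, (∀ x, ∃ i < 512, φ i = x) ∧
    (∀ i < 512, ∀ j < 512, φ i = φ j → i = j) ∧
    (∀ i < 512, ∀ j < 512, Commute (φ i) (φ j) → (Nf i).testBit j = true) ∧
    (∀ i < 512, ∀ j < 512, J0.testBit i = true → J0.testBit j = true → Commute (φ i) (φ j)) ∧
    (∀ j < 512, J0.testBit j = true → φ j ^ 2 = 1) := by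
  obtain ⟨g, hg⟩ := exists_g
  have hinj : ∀ i < 512, ∀ j < 512, (QuotientGroup.mk (g i) : X0) = QuotientGroup.mk (g j) →
      i = j := by
    intro i hi j hj h
    rcases (mk_eq_iff _ _).1 h with h1 | h1
    · have t1 := hg j hj
      rw [h1] at t1
      have := hT.sep (memB_iff.1 (k1 j hj)) (memB_iff.1 (k1 i hi)) (t1.look_eq (hg i hi))
      exact (k2 j hj i hi this).symm
    · exfalso
      have e1 : rp j = packF (fun p => look (rp i) (look D24.Tz p)) :=
        canon_sound hT.canon (memB_iff.1 (k1 j hj)) ((hg j hj).agree_fun (by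
          intro q; rw [h1]; exact (hg i hi).mul_fun z0_tab q))
      have h2 : (g i).1 = (g j).1 * z0 := by rw [h1, mul_assoc, z0_sq, mul_one]
      have e2 : rp i = packF (fun p => look (rp j) (look D24.Tz p)) :=
        canon_sound hT.canon (memB_iff.1 (k1 i hi)) ((hg i hi).agree_fun (by
          intro q; rw [h2]; exact (hg j hj).mul_fun z0_tab q))
      have a1 := k3 i hi
      have a2 := k3 j hj
      rw [← e1] at a1
      rw [← e2] at a2
      omega
  refine ⟨fun i => QuotientGroup.mk (g i), ?_, hinj, ?_, ?_, ?_⟩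
  · have hfin := fin_P0
    have hb : Function.Bijective (fun i : Fin 512 => (QuotientGroup.mk (g i.1) : X0)) := by
      apply Function.Injective.bijective_of_nat_card_le
      · intro a b hab
        exact Fin.ext (hinj a.1 a.2 b.1 b.2 hab)
      · rw [card_X0, Nat.card_eq_fintype_card, Fintype.card_fin]
    intro x
    obtain ⟨i, hi⟩ := hb.2 x
    exact ⟨i.1, i.2, hi⟩
  · intro i hi j hj h
    exact cz_bit hi hj ((commute_iff (hg i hi) (hg j hj)).1 h)
  · intro i hi j hj h1 h2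
    exact (commute_iff (hg i hi) (hg j hj)).2 (k6 i hi h1 j hj h2)
  · intro j hj hJ
    have h := (sqz_iff _).1 (k5 j hj hJ)
    show (QuotientGroup.mk (g j) : X0) ^ 2 = 1
    rw [pow_two, ← QuotientGroup.mk_mul, ← QuotientGroup.mk_one, eq_comm, mk_eq_iff]
    show (g j).1 * (g j).1 = 1 ∨ (g j).1 * (g j).1 = 1 * z0
    have f1 := (hg j hj).mul_fun (hg j hj)
    rcases h with h | h
    · left
      exact (eq_iff_fun (f' := fun p => p) f1 (fun q => rfl)).2 h
    · right
      rw [one_mul]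
      exact (eq_iff_fun f1 z0_tab).2 h

theorem map_center {G H : Type*} [Group G] [Group H] (e : G ≃* H) :
    (Subgroup.center G).map (e : G →* H) = Subgroup.center H := by
  ext y
  rw [Subgroup.mem_map]
  constructor
  · rintro ⟨x, hx, rfl⟩
    rw [Subgroup.mem_center_iff] at hx ⊢
    intro h
    have := congrArg e (hx (e.symm h))
    simpa using this
  · intro hy
    rw [Subgroup.mem_center_iff] at hy
    refine ⟨e.symm y, ?_, by simp⟩
    rw [Subgroup.mem_center_iff]
    intro g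
    apply e.injective
    simpa using hy (e g)

theorem final (P : Sylow 2 ↥M24) :
    (∀ M : Subgroup (↥(P : Subgroup ↥M24) ⧸ Subgroup.center ↥(P : Subgroup ↥M24)), IsCoatom M →
        Nat.card ↥(Subgroup.center ↥M) ≤ 8) ∧
      (∃ A : Subgroup (↥(P : Subgroup ↥M24) ⧸ Subgroup.center ↥(P : Subgroup ↥M24)),
        Cfsg.IsElementaryAbelian 2 A ∧ Nat.card ↥A = 64) ∧
      ∀ A B : Subgroup (↥(P : Subgroup ↥M24) ⧸ Subgroup.center ↥(P : Subgroup ↥M24)),
        IsMulCommutative ↥A → Nat.card ↥A = 64 → IsMulCommutative ↥B → Nat.card ↥B = 64 → A = B := by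
  have : Fact (Nat.Prime 2) := ⟨Nat.prime_two⟩
  have hcard : Nat.card (P0.subgroupOf M24) = 2 ^ 10 := by
    rw [show (2 : ℕ) ^ 10 = 1024 by norm_num, ← card_P0]
    exact Nat.card_congr (Subgroup.subgroupOfEquivOfLe P0_le).toEquiv
  have hfac : (Nat.card M24).factorization 2 = 10 := by
    rw [card24, Nat.factorization_mul (pow_ne_zero _ (by norm_num)) (by norm_num),
      Nat.Prime.factorization_pow Nat.prime_two]
    simp [Nat.factorization_eq_zero_of_not_dvd (show ¬ 2 ∣ 239085 by norm_num)]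
  let Q : Sylow 2 ↥M24 := Sylow.ofCard (P0.subgroupOf M24) (by rw [hcard, hfac])
  let e1 : ↥(Q : Subgroup ↥M24) ≃* ↥(P : Subgroup ↥M24) := Sylow.equiv Q P
  let e2 : ↥P0 ≃* ↥(Q : Subgroup ↥M24) := (Subgroup.subgroupOfEquivOfLe P0_le).symm
  let e : ↥P0 ≃* ↥(P : Subgroup ↥M24) := e2.trans e1
  let ε : X0 ≃* (↥(P : Subgroup ↥M24) ⧸ Subgroup.center ↥(P : Subgroup ↥M24)) :=
    QuotientGroup.congr _ _ e (map_center e)
  obtain ⟨φ, d1, d2, d3, d4, d5⟩ := data0
  have hX : Nat.card (↥(P : Subgroup ↥M24) ⧸ Subgroup.center ↥(P : Subgroup ↥M24)) = 512 := by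
    rw [← card_X0]; exact (Nat.card_congr ε.toEquiv).symm
  refine good_of_data (fun i => ε (φ i)) hX ?_ ?_ Nf ?_ J0 ?_ ?_ c0 c1 c2 c3
  · intro x
    obtain ⟨i, hi, h⟩ := d1 (ε.symm x)
    exact ⟨i, hi, by show ε (φ i) = x; rw [h, MulEquiv.apply_symm_apply]⟩
  · intro i hi j hj h
    exact d2 i hi j hj (ε.injective h)
  · intro i hi j hj h
    apply d3 i hi j hj
    show φ i * φ j = φ j * φ i
    apply ε.injective
    rw [map_mul, map_mul]
    exact h
  · intro i hi j hj h1 h2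
    have := d4 i hi j hj h1 h2
    show ε (φ i) * ε (φ j) = ε (φ j) * ε (φ i)
    rw [← map_mul, ← map_mul, this.eq]
  · intro j hj h
    show ε (φ j) ^ 2 = 1
    rw [← map_pow, d5 j hj h, map_one]

end Cfsg.Agent.Lib.Helper3.SQ
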